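import Mathlib
import Cfsg.Agent.Lib.Count.DirectFactor
import Cfsg.Agent.Lib.Core.Basic
import Cfsg.Agent.Lib.Coprime.Action

/-!
`π`-closed groups and `π'`-homogeneity.
-/

set_option autoImplicit false

namespace CfsgLib.Count

universe u

variable {G : Type*} [Group G]

/-- All primes dividing `n` lie in `π`. -/
def PiNum (π : Set ℕ) (n : ℕ) : Prop := ∀ p : ℕ, p.Prime → p ∣ n → p ∈ π

/-- The `π`-elements form a subgroup. -/
def PiClosed (π : Set ℕ) (G : Type*) [Group G] : Prop :=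
  ∃ K : Subgroup G, ∀ x : G, x ∈ K ↔ PiNum π (orderOf x)

/-- Weak `π'`-homogeneity: a `π`-element normalising a `q`-subgroup, `q ∉ π`, centralises it. -/
def WeakHom (π : Set ℕ) (G : Type*) [Group G] : Prop :=
  ∀ (q : ℕ), q.Prime → q ∉ π → ∀ Q : Subgroup G, IsPGroup q Q → ∀ y : G, PiNum π (orderOf y) →
    y ∈ Subgroup.normalizer (Q : Set G) → y ∈ Subgroup.centralizer (Q : Set G)

theorem PiNum.of_dvd {π : Set ℕ} {a b : ℕ} (h : PiNum π b) (hd : a ∣ b) : PiNum π a :=
  fun p hp h1 => h p hp (h1.trans hd)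

theorem PiNum.mul {π : Set ℕ} {a b : ℕ} (ha : PiNum π a) (hb : PiNum π b) : PiNum π (a * b) :=
  fun p hp h => ((Nat.Prime.dvd_mul hp).mp h).elim (ha p hp) (hb p hp)

theorem PiNum.coprime {π : Set ℕ} {a b : ℕ} (ha : PiNum π a) (hb : PiNum πᶜ b) : a.Coprime b :=
  Nat.coprime_of_dvd fun p hp h1 h2 => hb p hp h2 (ha p hp h1)

theorem piNum_prime_pow {π : Set ℕ} {q : ℕ} (hq : q.Prime) (h : q ∈ π) (k : ℕ) :
    PiNum π (q ^ k) := fun p hp hd => by
  rwa [(Nat.prime_dvd_prime_iff_eq hp hq).mp (hp.dvd_of_dvd_pow hd)]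

theorem piNum_card_of_forall [Finite G] {π : Set ℕ} (h : ∀ x : G, PiNum π (orderOf x)) :
    PiNum π (Nat.card G) := by
  intro p hp hd
  have := Fact.mk hp
  obtain ⟨x, hx⟩ := exists_prime_orderOf_dvd_card' p hd
  exact h x p hp (hx ▸ dvd_rfl)

theorem piNum_card_subgroup [Finite G] {π : Set ℕ} {K : Subgroup G}
    (h : ∀ x ∈ K, PiNum π (orderOf x)) : PiNum π (Nat.card K) :=
  piNum_card_of_forall fun x => by rw [← Subgroup.orderOf_coe]; exact h x x.2

theorem orderOf_dvd_mul_card_ker {H : Type*} [Group H] (f : G →* H) (x : G) :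
    orderOf x ∣ orderOf (f x) * Nat.card f.ker := by
  apply orderOf_dvd_of_pow_eq_one
  have : x ^ orderOf (f x) ∈ f.ker := by rw [MonoidHom.mem_ker, map_pow, pow_orderOf_eq_one]
  rw [pow_mul]
  exact orderOf_dvd_iff_pow_eq_one.mp (Subgroup.orderOf_dvd_natCard _ this)

theorem normal_of_mem_iff_piNum {π : Set ℕ} {K : Subgroup G}
    (h : ∀ x : G, x ∈ K ↔ PiNum π (orderOf x)) : K.Characteristic := by
  rw [Subgroup.characteristic_iff_le_comap]
  intro φ x hx
  rw [Subgroup.mem_comap, h]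
  have : orderOf (φ.toMonoidHom x) = orderOf x := φ.orderOf_eq x
  rw [this]
  exact (h x).mp hx

theorem piNum_index_of_mem_iff [Finite G] {π : Set ℕ} {K : Subgroup G}
    (h : ∀ x : G, PiNum π (orderOf x) → x ∈ K) : PiNum πᶜ K.index := by
  intro p hp hd hpπ
  have := Fact.mk hp
  refine (default : Sylow p G).not_dvd_index (hd.trans (Subgroup.index_dvd_of_le fun x hx => ?_))
  obtain ⟨k, hk⟩ := exists_orderOf_eq_of_mem (default : Sylow p G).isPGroup' hx
  exact h x (hk ▸ piNum_prime_pow hp hpπ k)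

theorem piClosed_of_normal {π : Set ℕ} (K : Subgroup G) [K.Normal] (h1 : PiNum π (Nat.card K))
    (h2 : PiNum πᶜ K.index) : PiClosed π G :=
  ⟨K, fun _ => ⟨fun hx => h1.of_dvd (K.orderOf_dvd_natCard hx),
    fun hx => mem_of_coprime_index (hx.coprime h2)⟩⟩

theorem weakHom_of_hom [Finite G] {π : Set ℕ}
    (hhom : ∀ H : Subgroup G, H ≠ ⊥ → (∀ p : ℕ, p.Prime → p ∣ Nat.card ↥H → p ∉ π) →
      ∀ p : ℕ, p.Prime → p ∣ (Subgroup.centralizer (H : Set G)).relIndex
        (Subgroup.normalizer (H : Set G)) → p ∉ π) : WeakHom π G := by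
  intro q hq hqπ Q hQ y hy hyN
  by_cases hQ1 : Q = ⊥
  · subst hQ1
    intro x hx
    rw [Subgroup.mem_bot.mp hx, one_mul, mul_one]
  have := Fact.mk hq
  obtain ⟨k, hk⟩ := hQ.exists_card_eq
  have h1 : PiNum πᶜ ((Subgroup.centralizer (Q : Set G)).subgroupOf
      (Subgroup.normalizer (Q : Set G))).index :=
    hhom Q hQ1 (hk ▸ piNum_prime_pow (π := πᶜ) hq hqπ k)
  exact mem_of_coprime_index (K := (Subgroup.centralizer (Q : Set G)).subgroupOf
      (Subgroup.normalizer (Q : Set G))) (y := ⟨y, hyN⟩)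
      (by rw [Subgroup.orderOf_mk]; exact hy.coprime h1)

theorem WeakHom.subgroup [Finite G] {π : Set ℕ} (h : WeakHom π G) (H : Subgroup G) :
    WeakHom π H := by
  intro q hq hqπ Q hQ y hy hyN
  have h1 := h q hq hqπ (Q.map H.subtype) (hQ.map _) y (by rwa [Subgroup.orderOf_coe])
    (Subgroup.le_normalizer_map H.subtype ⟨y, hyN, rfl⟩)
  intro x hx
  exact Subtype.ext (h1 x ⟨x, hx, rfl⟩)

theorem WeakHom.quotient [Finite G] {π : Set ℕ} (h : WeakHom π G) (L : Subgroup G) [L.Normal]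
    (hL : PiNum π (Nat.card L)) : WeakHom π (G ⧸ L) := by
  intro q hq hqπ Q hQ y hy hyN
  have := Fact.mk hq
  set K := Q.comap (QuotientGroup.mk' L) with hK
  let S : Sylow q K := default
  have hLK : L ≤ K := QuotientGroup.le_comap_mk' L Q
  obtain ⟨k, hk⟩ := hQ.exists_card_eq
  have hcop : (Nat.card L).Coprime q := hL.coprime (by simpa using piNum_prime_pow (π := πᶜ) hq hqπ 1)
  set T : Subgroup G := (S : Subgroup K).map K.subtype with hT
  have hTp : IsPGroup q T := S.isPGroup'.map _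
  obtain ⟨j, hj⟩ := hTp.exists_card_eq
  have hTQ : T.map (QuotientGroup.mk' L) = Q := by
    have h1 : (L.subgroupOf K) ⊔ (S : Subgroup K) = ⊤ := by
      apply CfsgLib.Core.sup_eq_top_of_coprime_index
      have e1 := (L.subgroupOf K).card_mul_index
      rw [CfsgLib.Core.card_subgroupOf_of_le hLK, hK, CfsgLib.Core.card_comap_mk', mul_comm] at e1
      rw [Nat.eq_of_mul_eq_mul_right Nat.card_pos e1, hk]
      exact Nat.Coprime.pow_left _ ((Nat.Prime.coprime_iff_not_dvd hq).mpr S.not_dvd_index)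
    have h2 : L ⊔ T = K := by
      rw [hT, ← Subgroup.map_subgroupOf_eq_of_le hLK, ← Subgroup.map_sup, h1,
        ← MonoidHom.range_eq_map, Subgroup.range_subtype]
    have h3 := congrArg (Subgroup.map (QuotientGroup.mk' L)) h2
    rwa [Subgroup.map_sup, QuotientGroup.map_mk'_self, bot_sup_eq, hK,
      Subgroup.map_comap_eq_self_of_surjective (QuotientGroup.mk'_surjective L)] at h3
  have hc : (Nat.card T).Coprime (Nat.card L) := hj ▸ Nat.Coprime.pow_left _ hcop.symm
  have hs : Group.IsSolvable T ∨ Group.IsSolvable L :=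
    Or.inl (CfsgLib.Coprime.isSolvable_of_isPGroup hTp)
  rw [← hTQ, ← CfsgLib.Coprime.map_normalizer_quotient L hc hs] at hyN
  obtain ⟨x, hx, rfl⟩ := hyN
  rw [← hTQ, ← CfsgLib.Coprime.map_centralizer_quotient L hc hs]
  refine ⟨x, h q hq hqπ T hTp x ?_ hx, rfl⟩
  refine (hy.mul ?_).of_dvd (orderOf_dvd_mul_card_ker (QuotientGroup.mk' L) x)
  rwa [QuotientGroup.ker_mk']

/-- A weakly `π'`-homogeneous extension of a `π'`-group by a `π`-closed group is `π`-closed. -/
theorem piClosed_of_pi_prime_normal [Finite G] {π : Set ℕ} (h : WeakHom π G) (K : Subgroup G)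
    [K.Normal] (hK : PiNum πᶜ (Nat.card K)) (hQ : PiClosed π (G ⧸ K)) : PiClosed π G := by
  obtain ⟨L, hL⟩ := hQ
  have hLc := normal_of_mem_iff_piNum hL
  set H := L.comap (QuotientGroup.mk' K) with hH
  have hKH : K ≤ H := QuotientGroup.le_comap_mk' K L
  have hLn : PiNum π (Nat.card L) := piNum_card_subgroup fun x hx => (hL x).mp hx
  have hidx : K.relIndex H = Nat.card L := by
    have e1 := CfsgLib.Core.card_mul_relIndex_of_le hKH
    rw [hH, CfsgLib.Core.card_comap_mk', mul_comm] at e1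
    exact Nat.eq_of_mul_eq_mul_right Nat.card_pos e1
  obtain ⟨D, hDH, -, hKD, hDc⟩ := CfsgLib.Coprime.exists_complement_of_le_normalizer hKH
    Subgroup.le_normalizer_of_normal (by rw [hidx]; exact (hLn.coprime hK).symm)
  rw [hidx] at hDc
  have hDC : D ≤ Subgroup.centralizer (K : Set G) := by
    apply le_of_primePow_mem
    intro x hx p k hp hk
    have hxπ : PiNum π (orderOf x) := (hDc ▸ hLn).of_dvd (D.orderOf_dvd_natCard hx)
    rcases Nat.eq_zero_or_pos k with rfl | hk0
    · rw [pow_zero, orderOf_eq_one_iff] at hk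
      rw [hk]; exact Subgroup.one_mem _
    have hpπ : p ∈ π := hxπ p hp (hk ▸ dvd_pow_self p hk0.ne')
    have := Fact.mk hp
    have h1 : (Subgroup.centralizer ({x} : Set G)).subgroupOf K = ⊤ := by
      apply eq_top_of_sylow_le
      intro q hq
      have := Fact.mk hq
      obtain ⟨S, hS⟩ := exists_sylow_normalized (p := q) (q := p) (k := k) K
        (fun hd => hK p hp hd hpπ) (y := x) (by rw [← hk, pow_orderOf_eq_one])
        (by rw [Subgroup.normalizer_eq_top]; trivial)
      refine ⟨S, fun s hs => ?_⟩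
      rw [Subgroup.mem_subgroupOf, Subgroup.mem_centralizer_singleton_iff]
      by_cases hqπ : q ∈ π
      · obtain ⟨j, hj⟩ := exists_orderOf_eq_of_mem S.isPGroup' hs
        have : orderOf s = 1 := Nat.Coprime.eq_one_of_dvd
          ((hj ▸ piNum_prime_pow hq hqπ j : PiNum π (orderOf s)).coprime hK) (orderOf_dvd_natCard s)
        rw [orderOf_eq_one_iff.mp this]; simp
      · exact h q hq hqπ _ (S.isPGroup'.map _) x hxπ hS s ⟨s, hs, rfl⟩
    intro y hy
    have : (⟨y, hy⟩ : K) ∈ (Subgroup.centralizer ({x} : Set G)).subgroupOf K := h1 ▸ trivial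
    exact Subgroup.mem_centralizer_singleton_iff.mp this
  have hHD : H ≤ Subgroup.normalizer (D : Set G) := by
    rw [← hKD]
    refine sup_le (fun y hy => Subgroup.centralizer_le_normalizer _ fun d hd => ?_)
      Subgroup.le_normalizer
    exact (hDC hd y hy).symm
  refine ⟨D, fun x => ⟨fun hx => (hDc ▸ hLn).of_dvd (D.orderOf_dvd_natCard hx), fun hx => ?_⟩⟩
  have hxH : x ∈ H := (hL _).mpr (hx.of_dvd (orderOf_map_dvd _ _))
  have hn : (D.subgroupOf H).Normal := Subgroup.normal_subgroupOf_of_le_normalizer hHD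
  refine mem_of_coprime_index (K := D.subgroupOf H) (y := ⟨x, hxH⟩) ?_
  rw [Subgroup.orderOf_mk]
  apply hx.coprime
  have e1 := CfsgLib.Core.card_mul_relIndex_of_le hDH
  rw [hH, CfsgLib.Core.card_comap_mk', hDc] at e1
  have e2 : (D.subgroupOf H).index = Nat.card K := Nat.eq_of_mul_eq_mul_left Nat.card_pos e1
  rwa [e2]

theorem piClosed_of_quotient [Finite G] {π : Set ℕ} (L : Subgroup G) [L.Normal]
    (hL : PiNum π (Nat.card L)) (hQ : PiClosed π (G ⧸ L)) : PiClosed π G := by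
  obtain ⟨D, hD⟩ := hQ
  refine ⟨D.comap (QuotientGroup.mk' L), fun x => ⟨fun hx => ?_, fun hx => ?_⟩⟩
  · refine (((hD _).mp hx).mul ?_).of_dvd (orderOf_dvd_mul_card_ker (QuotientGroup.mk' L) x)
    rwa [QuotientGroup.ker_mk']
  · exact (hD _).mpr (hx.of_dvd (orderOf_map_dvd _ _))

theorem PiClosed.of_mulEquiv {π : Set ℕ} {H : Type*} [Group H] (h : PiClosed π G) (e : G ≃* H) :
    PiClosed π H := by
  obtain ⟨D, hD⟩ := h
  refine ⟨D.comap e.symm.toMonoidHom, fun x => ?_⟩
  rw [Subgroup.mem_comap, hD]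
  have : orderOf (e.symm.toMonoidHom x) = orderOf x := e.symm.orderOf_eq x
  rw [this]

theorem piClosed_extension [Finite G] {π : Set ℕ} (h : WeakHom π G) (K : Subgroup G) [K.Normal]
    (hK : PiClosed π K) (hQ : PiClosed π (G ⧸ K)) : PiClosed π G := by
  obtain ⟨L0, hL0⟩ := hK
  have hc := normal_of_mem_iff_piNum hL0
  set L := L0.map K.subtype with hL
  have hLn : L.Normal := CfsgLib.Core.normal_map_subtype_of_characteristic L0
  have hLK : L ≤ K := Subgroup.map_subtype_le _
  have hLπ : PiNum π (Nat.card L) := by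
    rw [CfsgLib.Core.card_map_subtype]
    exact piNum_card_subgroup fun x hx => (hL0 x).mp hx
  apply piClosed_of_quotient L hLπ
  apply piClosed_of_pi_prime_normal (h.quotient L hLπ) (K.map (QuotientGroup.mk' L))
  · have e1 := CfsgLib.Core.card_map_mk'_mul_card_inf K L
    rw [inf_eq_right.mpr hLK, CfsgLib.Core.card_map_subtype, ← L0.index_mul_card] at e1
    rw [Nat.eq_of_mul_eq_mul_right Nat.card_pos e1]
    exact piNum_index_of_mem_iff fun x hx => (hL0 x).mpr hx
  · exact hQ.of_mulEquiv (QuotientGroup.quotientQuotientEquivQuotient L K hLK).symm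

theorem piClosed_of_piNum {π : Set ℕ} (h : PiNum π (Nat.card G)) : PiClosed π G :=
  ⟨⊤, fun x => ⟨fun _ => h.of_dvd (orderOf_dvd_natCard x), fun _ => trivial⟩⟩

theorem piClosed_of_piNum_compl {π : Set ℕ} (h : PiNum πᶜ (Nat.card G)) : PiClosed π G :=
  piClosed_of_normal ⊥ (by intro p hp hd; simp at hd; exact absurd hd hp.ne_one)
    (by rwa [Subgroup.index_bot])

end CfsgLib.Count
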